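import Cfsg.Agent.J2.FusData
import Cfsg.Agent.J2.Aut
import Cfsg.Agent.Fusion.GenSimple
import Cfsg.Agent.Hall.StructBatch

/-!
# The 2-fusion system of `J₂` is simple
-/

set_option autoImplicit false
set_option maxRecDepth 100000

namespace CfsgLib.J2

open Pointwise

/-- The Sylow subgroup inside the line stabiliser. -/
noncomputable def sylS : Subgroup G315 := cloG syl0Gens

theorem syl0_valid {k : ℕ} (hk : k < 128) : valid (syl0.getD k 0) = true := by
  have hl : syl0.length = 128 := by
    have := syl0_facts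
    simp only [Bool.and_eq_true] at this
    exact Nat.eq_of_beq_eq_true this.1.1.1.1.1
  have := syl0_ok
  simp only [sylOk, Bool.and_eq_true] at this
  rw [List.getD_eq_getElem _ _ (hl ▸ hk)]
  exact List.all_eq_true.1 this.1.1.1.1.1.1.1 _ (List.getElem_mem _)

theorem syl0_len : syl0.length = 128 := by
  have := syl0_facts
  simp only [Bool.and_eq_true] at this
  exact Nat.eq_of_beq_eq_true this.1.1.1.1.1

theorem card_sylS : Nat.card sylS = 2 ^ 7 := by rw [sylS, (syl_spec syl0_ok).1, syl0_len]; rfl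

theorem mem_sylS {g : G315} (hg : g ∈ sylS) : ∃ k < 128, g = el (syl0.getD k 0) := by
  obtain ⟨k, hk, rfl⟩ := (syl_spec syl0_ok).2 g hg
  exact ⟨k, syl0_len ▸ hk, rfl⟩

theorem el_mem_sylS {k : ℕ} (hk : k < 128) : el (syl0.getD k 0) ∈ sylS := by
  classical
  have hinj : Function.Injective fun g : sylS => (mem_sylS g.2).choose := by
    intro a b h
    apply Subtype.ext
    have ha := (mem_sylS a.2).choose_spec.2
    have hb := (mem_sylS b.2).choose_spec.2
    simp only at h
    rw [ha, hb, h]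
  let f : sylS → Fin 128 := fun g => ⟨_, (mem_sylS g.2).choose_spec.1⟩
  have hf : Function.Injective f := fun a b h => hinj (congrArg Fin.val h)
  have hb : Function.Bijective f :=
    (Nat.bijective_iff_injective_and_card f).2 ⟨hf, by rw [card_sylS, Nat.card_fin]; rfl⟩
  obtain ⟨g, hg⟩ := hb.2 ⟨k, hk⟩
  have := (mem_sylS g.2).choose_spec.2
  rw [show (mem_sylS g.2).choose = k from congrArg Fin.val hg] at this
  exact this ▸ g.2

theorem s0_rel {k : ℕ} (hk : k < 128) : RelL (el (syl0.getD k 0) : P315) (s0 k) := el_rel (syl0_valid hk)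

theorem z_eq : el (syl0.getD zPos 0) = reflP (⟨0, by omega⟩ : Fin 315) := by
  have h := syl0_facts
  simp only [Bool.and_eq_true, Nat.blt_eq] at h
  exact G_eq (s0_rel h.1.1.1.1.2) rtab0_rel h.1.1.1.2

theorem sylS_le_stab0 : sylS ≤ stab0 := by
  intro g hg
  obtain ⟨k, hk, rfl⟩ := mem_sylS hg
  have h := syl0_facts
  simp only [Bool.and_eq_true] at h
  exact mem_stab0.2 (Fin.ext ((s0_rel hk _).trans
    (Nat.eq_of_beq_eq_true (List.all_eq_true.1 h.1.1.2 k (List.mem_range.2 hk)))))

theorem q_le_sylS : cloG qGens ≤ sylS := by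
  intro g hg
  obtain ⟨k, hk, rfl⟩ := (syl_spec q_ok).2 g hg
  have hm : qCodes.getD k 0 ∈ qCodes := by rw [List.getD_eq_getElem _ _ hk]; exact List.getElem_mem _
  have h := syl0_facts
  simp only [Bool.and_eq_true] at h
  obtain ⟨c, hc, he⟩ := List.any_eq_true.1 (List.all_eq_true.1 h.1.2 _ hm)
  obtain ⟨m, hm', rfl⟩ := List.mem_iff_getElem.1 hc
  rw [syl0_len] at hm'
  have := el_mem_sylS hm'
  rw [List.getD_eq_getElem _ _ (syl0_len ▸ hm')] at this
  have hr : RelL (el syl0[m] : P315) (E syl0[m]) := by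
    have := s0_rel hm'
    rwa [s0, List.getD_eq_getElem _ _ (syl0_len ▸ hm')] at this
  rwa [G_eq (el_rel (qCodes_valid hk)) hr he]

theorem center_sylS {g : G315} (hg : g ∈ sylS) (hc : ∀ x ∈ sylS, g * x = x * g) :
    g = 1 ∨ g = reflP (⟨0, by omega⟩ : Fin 315) := by
  obtain ⟨k, hk, rfl⟩ := mem_sylS hg
  have h := syl0_facts
  simp only [Bool.and_eq_true] at h
  have hh := List.all_eq_true.1 h.2 k (List.mem_range.2 hk)
  simp only [Bool.or_eq_true] at hh
  rcases hh with (hh | hh) | hh
  · left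
    obtain rfl := Nat.eq_of_beq_eq_true hh
    have h1 := syl0_ok
    simp only [sylOk, Bool.and_eq_true] at h1
    exact G_eq (h := (1 : G315)) (s0_rel hk) RelL.nil h1.1.1.1.1.2
  · right
    obtain rfl := Nat.eq_of_beq_eq_true hh
    exact z_eq
  · exfalso
    obtain ⟨c, hc', he⟩ := List.any_eq_true.1 hh
    have hv : valid c = true := by
      have h1 := syl0_ok
      simp only [sylOk, Bool.and_eq_true] at h1
      exact List.all_eq_true.1 h1.1.1.1.1.1.1.2 _ hc'
    have := hc (el c) (Subgroup.subset_closure ⟨c, hc', rfl⟩)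
    rw [eqB_of_eq (RelL.appendG (s0_rel hk) (el_rel hv)) (RelL.appendG (el_rel hv) (s0_rel hk)) this] at he
    exact Bool.false_ne_true he

theorem closed_eq (T : Subgroup G315) (hT : T ≤ sylS) (hne : T ≠ ⊥)
    (hcl : ∀ x ∈ T, ∀ g : G315, g * x * g⁻¹ ∈ sylS → g * x * g⁻¹ ∈ T) : T = sylS := by
  haveI : Fact (Nat.Prime 2) := ⟨Nat.prime_two⟩
  haveI hn : (T.subgroupOf sylS).Normal := ⟨fun x hx g => by
    rw [Subgroup.mem_subgroupOf] at hx ⊢
    push_cast
    exact hcl _ hx _ (mul_mem (mul_mem g.2 (hT hx)) (inv_mem g.2))⟩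
  have hp : IsPGroup 2 sylS := IsPGroup.of_card (n := 7) card_sylS
  haveI : Group.IsNilpotent sylS := hp.isNilpotent
  have hTS : T.subgroupOf sylS ≠ ⊥ := by
    rw [Ne, Subgroup.subgroupOf_eq_bot]
    exact fun h => hne (h.eq_bot_of_le hT)
  have hz : reflP (⟨0, by omega⟩ : Fin 315) ∈ T := by
    obtain ⟨⟨x, hx⟩, hx1⟩ := Subgroup.ne_bot_iff_exists_ne_one.1
      (CfsgLib.Hall.Struct.inf_center_ne_bot (T.subgroupOf sylS) hTS)
    obtain ⟨hxT, hxc⟩ := Subgroup.mem_inf.1 hx
    rcases center_sylS x.2 (fun y hy =>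
      (congrArg Subtype.val (Subgroup.mem_center_iff.1 hxc ⟨y, hy⟩)).symm) with h | h
    · exact absurd (Subtype.ext (Subtype.ext h) : (⟨x, hx⟩ : ↥(T.subgroupOf sylS ⊓ Subgroup.center sylS)) = 1) hx1
    · exact h ▸ hxT
  refine le_antisymm hT ?_
  have hent : ∀ i < fuseProg.length + 1, entry i < 128 ∧ el (syl0.getD (entry i) 0) ∈ T := by
    intro i
    induction i using Nat.strong_induction_on with
    | _ i ih =>
      intro hi
      rcases i with _ | i
      · have h := syl0_facts
        simp only [Bool.and_eq_true, Nat.blt_eq] at h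
        exact ⟨h.1.1.1.1.2, (congrArg (· ∈ T) z_eq).mpr hz⟩
      · have hi' : i < fuseProg.length := by omega
        have h := fuse_ok
        simp only [Bool.and_eq_true] at h
        have hh := List.all_eq_true.1 h.1 i (List.mem_range.2 hi')
        have he : entry (i + 1) = (fuseProg.getD i (0, 0, 0, 0)).2.2.2 := by
          simp [entry, List.getD_eq_getElem?_getD, List.getElem?_map, List.getElem?_eq_getElem hi']
        rw [he]
        generalize fuseProg.getD i (0, 0, 0, 0) = s at hh
        obtain ⟨t, a, b, k⟩ := s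
        simp only [Bool.and_eq_true, Nat.blt_eq] at hh
        obtain ⟨⟨ha, hk⟩, hh⟩ := hh
        obtain ⟨hea, hma⟩ := ih a (by omega) (by omega)
        refine ⟨hk, ?_⟩
        show el (syl0.getD k 0) ∈ T
        split_ifs at hh with ht
        · simp only [Bool.and_eq_true] at hh
          have e := G_eq (RelL.appendG (el_rel hh.1) (s0_rel hea)) (RelL.appendG (s0_rel hk) (el_rel hh.1)) hh.2
          have e2 : el b * el (syl0.getD (entry a) 0) * (el b)⁻¹ = el (syl0.getD k 0) := by
            rw [e, mul_inv_cancel_right]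
          exact e2 ▸ hcl _ hma _ (e2.symm ▸ el_mem_sylS hk)
        · simp only [Bool.and_eq_true, Nat.blt_eq] at hh
          obtain ⟨heb, hmb⟩ := ih b (by omega) (by omega)
          rw [G_eq (s0_rel hk) (RelL.appendG (s0_rel hea) (s0_rel heb)) hh.2]
          exact mul_mem hma hmb
  rw [sylS, cloG, Subgroup.closure_le]
  rintro g ⟨c, hc, rfl⟩
  obtain ⟨j, hj, rfl⟩ := List.mem_iff_getElem.1 hc
  have h := fuse_ok
  simp only [Bool.and_eq_true] at h
  have hh := List.all_eq_true.1 h.2 j (List.mem_range.2 hj)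
  simp only [Bool.and_eq_true, Nat.blt_eq] at hh
  obtain ⟨h1, h2⟩ := hent _ hh.1
  have hv : valid syl0Gens[j] = true := by
    have h1 := syl0_ok
    simp only [sylOk, Bool.and_eq_true] at h1
    exact List.all_eq_true.1 h1.1.1.1.1.1.1.2 _ (List.getElem_mem _)
  have he := hh.2
  rw [List.getD_eq_getElem _ _ hj] at he
  exact (G_eq (el_rel hv) (s0_rel h1) he) ▸ h2

theorem q_fix0 : cloG qGens ≤ stab0 := q_le_sylS.trans sylS_le_stab0

theorem z_refl : eqB (E (qCodes.getD zIdx 0)) [rtab 0] = true := by decide +kernel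

theorem cent_q : Subgroup.centralizer (cloG qGens : Set G315) ≤ cloG qGens := by
  intro g hg
  have hzq : reflP (⟨0, by omega⟩ : Fin 315) ∈ cloG qGens := by
    obtain ⟨-, hall⟩ := syl_spec q_ok
    have hz := z_ok
    rw [Nat.blt_eq] at hz
    have hmem := ker_mem.q_mem_of_lt zIdx hz.2.2.1
    rw [← G_eq (el_rel (qCodes_valid hz.2.2.1)) rtab0_rel z_refl]
    rwa [List.getD_eq_getElem _ _ hz.2.2.1]
  have hg0 : g ∈ stab0 := by
    rw [stab0, Subgroup.mem_centralizer_singleton_iff]
    exact (Subgroup.mem_centralizer_iff.1 hg _ hzq).symm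
  obtain ⟨c, hc, hcr⟩ := mem_codesBelow below below_props.1 below_props.2.1 below_props.2.2.2 _ (stab0_lev hg0)
  have h := List.all_eq_true.1 cent_q_ok c hc
  simp only [Bool.or_eq_true, Bool.not_eq_true'] at h
  rcases h with h | h
  · exfalso
    rw [← Bool.not_eq_true, List.all_eq_true] at h
    refine h fun d hd => ?_
    have hv : valid d = true := by
      have h1 := q_ok
      simp only [sylOk, Bool.and_eq_true] at h1
      exact List.all_eq_true.1 h1.1.1.1.1.1.1.2 _ hd
    exact eqB_of_eq (RelL.appendG hcr (el_rel hv)) (RelL.appendG (el_rel hv) hcr)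
      (Subgroup.mem_centralizer_iff.1 hg _ (Subgroup.subset_closure ⟨d, hd, rfl⟩)).symm
  · obtain ⟨d, hd, he⟩ := List.any_eq_true.1 h
    obtain ⟨m, hm, rfl⟩ := List.mem_iff_getElem.1 hd
    have hv : valid qCodes[m] = true := by
      have := qCodes_valid hm
      rwa [List.getD_eq_getElem _ _ hm] at this
    rw [G_eq hcr (el_rel hv) he]
    exact ker_mem.q_mem_of_lt m hm

theorem stab0_norm_q : stab0 ≤ Subgroup.normalizer (cloG qGens : Set G315) := by
  intro g hg
  rw [Subgroup.mem_normalizer_iff]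
  intro x
  constructor <;> intro hx
  · have := (inferInstance : psi.ker.Normal).conj_mem ⟨x, q_fix0 hx⟩ (ker_mem.2 hx) ⟨g, hg⟩
    exact ker_mem.1 this
  · have hx0 := q_fix0 hx
    have := (inferInstance : psi.ker.Normal).conj_mem ⟨g * x * g⁻¹, hx0⟩ (ker_mem.2 hx) ⟨g⁻¹, inv_mem hg⟩
    have h2 := ker_mem.1 this
    simp only [Subgroup.coe_mul, Subgroup.coe_inv, inv_inv] at h2
    simpa [mul_assoc] using h2

/-- The line stabiliser is generated by its 2-elements. -/
theorem stab0_le_closure :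
    stab0 ≤ Subgroup.closure {g : G315 | g ∈ Subgroup.normalizer (cloG qGens : Set G315) ∧
      ∃ k : ℕ, orderOf g = 2 ^ k} := by
  haveI : Fact (Nat.Prime 2) := ⟨Nat.prime_two⟩
  set K : Subgroup stab0 := Subgroup.closure {g : stab0 | ∃ k : ℕ, orderOf g = 2 ^ k} with hK
  haveI : K.Normal := by
    refine ⟨fun n hn g => ?_⟩
    have : K.map (MulAut.conj g).toMonoidHom ≤ K := by
      rw [hK, MonoidHom.map_closure, Subgroup.closure_le]
      rintro _ ⟨y, ⟨k, hk⟩, rfl⟩
      exact Subgroup.subset_closure ⟨k, by rw [← hk]; exact MulEquiv.orderOf_eq (MulAut.conj g) y⟩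
    exact this ⟨n, hn, rfl⟩
  have hS : ∀ x : stab0, (x : G315) ∈ sylS → x ∈ K := fun x hx => by
    obtain ⟨k, hk⟩ := (IsPGroup.iff_orderOf.1 (IsPGroup.of_card card_sylS)) ⟨x, hx⟩
    exact Subgroup.subset_closure ⟨k, by rw [← hk, ← Subgroup.orderOf_coe x, ← Subgroup.orderOf_coe (⟨x.1, hx⟩ : sylS)]⟩
  have hker : psi.ker ≤ K := fun x hx => hS x (q_le_sylS (ker_mem.1 hx))
  haveI : IsSimpleGroup (alternatingGroup (Fin 5)) := alternatingGroup.isSimpleGroup (by simp)
  let e : psi.range ≃* alternatingGroup (Fin 5) := MulEquiv.subgroupCongr psi_range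
  let f : stab0 →* alternatingGroup (Fin 5) := e.toMonoidHom.comp psi.rangeRestrict
  have hf : Function.Surjective f := e.surjective.comp psi.rangeRestrict_surjective
  have hfk : f.ker = psi.ker := by
    rw [MonoidHom.ker_comp_of_injective _ _ e.injective, MonoidHom.ker_rangeRestrict]
  have htop : K = ⊤ := by
    rcases IsSimpleGroup.eq_bot_or_eq_top_of_normal (K.map f)
      (Subgroup.Normal.map inferInstance f hf) with h | h
    · exfalso
      rw [Subgroup.map_eq_bot_iff, hfk] at h
      have h1 : Nat.card (sylS.subgroupOf stab0) ≤ Nat.card psi.ker :=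
        Subgroup.card_le_of_le (fun x hx => h (hS x hx))
      rw [Nat.card_congr (Subgroup.subgroupOfEquivOfLe sylS_le_stab0).toEquiv, card_sylS, card_ker] at h1
      norm_num at h1
    · have hk' : f.ker ≤ K := hfk.symm ▸ hker
      rw [← Subgroup.comap_map_eq_self hk', h, Subgroup.comap_top]
  intro g hg
  have : (⟨g, hg⟩ : stab0) ∈ K := htop ▸ Subgroup.mem_top _
  have h2 := Subgroup.mem_map_of_mem stab0.subtype this
  rw [hK, MonoidHom.map_closure] at h2
  refine Subgroup.closure_mono ?_ h2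
  rintro _ ⟨y, ⟨k, hk⟩, rfl⟩
  exact ⟨stab0_norm_q y.2, k, by rw [← hk]; exact Subgroup.orderOf_coe y⟩

theorem norm_sylS_le : Subgroup.normalizer (sylS : Set G315) ≤ stab0 := by
  intro g hg
  have hzS : reflP (⟨0, by omega⟩ : Fin 315) ∈ sylS := by
    have h := syl0_facts
    simp only [Bool.and_eq_true, Nat.blt_eq] at h
    exact z_eq ▸ el_mem_sylS h.1.1.1.1.2
  have hm : g * reflP ⟨0, by omega⟩ * g⁻¹ ∈ sylS := (Subgroup.mem_normalizer_iff.1 hg _).1 hzS
  rcases center_sylS hm (fun y hy => by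
    have hy' : g⁻¹ * y * g ∈ sylS := by
      refine (Subgroup.mem_normalizer_iff.1 hg _).2 ?_
      simpa [mul_assoc] using hy
    have := Subgroup.mem_centralizer_singleton_iff.1 (sylS_le_stab0 hy')
    calc g * reflP ⟨0, by omega⟩ * g⁻¹ * y = g * (reflP ⟨0, by omega⟩ * (g⁻¹ * y * g)) * g⁻¹ := by group
      _ = y * (g * reflP ⟨0, by omega⟩ * g⁻¹) := by rw [← this]; group) with h | h
  · exfalso
    rw [conj_eq_one_iff] at h
    have := eqB_of_eq rtab0_rel RelL.nil h
    have hw := sqRoot_ok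
    simp only [Bool.and_eq_true, Bool.not_eq_true'] at hw
    rw [hw.2] at this
    exact Bool.false_ne_true this
  · rw [stab0, Subgroup.mem_centralizer_singleton_iff]
    exact mul_inv_eq_iff_eq_mul.1 h

/-- The 2-fusion system of a group isomorphic to `J₂` is simple. -/
theorem isSimple_fusion {G : Type*} [Group G] [Finite G] (e : G ≃* G315) (S : Sylow 2 G) :
    (Cfsg.groupFusionSystem (S : Subgroup G)).IsSimple 2 := by
  haveI : Fact (Nat.Prime 2) := ⟨Nat.prime_two⟩
  have hS0 : Nat.card sylS = 2 ^ (Nat.card G315).factorization 2 := by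
    rw [card_sylS, card_G315, fac_vals.1]
  have hm : Nat.card ((S : Subgroup G).map e.toMonoidHom) = 2 ^ (Nat.card G315).factorization 2 := by
    rw [← Nat.card_congr (Subgroup.equivMapOfInjective _ _ e.injective).toEquiv, S.card_eq_multiplicity,
      Nat.card_congr e.toEquiv]
  obtain ⟨c, hc⟩ := MulAction.exists_smul_eq G315 (Sylow.ofCard _ hm) (Sylow.ofCard sylS hS0)
  have hc' : MulAut.conj c • (S : Subgroup G).map e.toMonoidHom = sylS := by
    exact congrArg (fun P : Sylow 2 G315 => (P : Subgroup G315)) hc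
  let f : G ≃* G315 := e.trans (MulAut.conj c)
  have hfS : ∀ x, x ∈ (S : Subgroup G) ↔ f x ∈ sylS := by
    intro x
    rw [← hc']
    show _ ↔ MulAut.conj c • e x ∈ _
    rw [Subgroup.smul_mem_pointwise_smul_iff]
    exact (Subgroup.mem_map_iff_mem (f := e.toMonoidHom) e.injective).symm
  refine CfsgLib.Fusion.isSimple_of_generators 2 S ?_ ?_ ?_
  · intro h
    have h1 : Nat.card (S : Subgroup G) = 1 := by rw [h, Subgroup.card_bot]
    rw [S.card_eq_multiplicity, Nat.card_congr f.toEquiv, card_G315, fac_vals.1] at h1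
    norm_num at h1
  · intro T hT
    rcases eq_or_ne T ⊥ with h | h
    · exact Or.inl h
    right
    have key := closed_eq (T.map f.toMonoidHom) ?_ ?_ ?_
    · ext x
      rw [hfS, ← key]
      exact (Subgroup.mem_map_iff_mem (f := f.toMonoidHom) f.injective).symm
    · rintro _ ⟨x, hx, rfl⟩
      exact (hfS x).1 (hT.1 hx)
    · exact fun hb => h ((Subgroup.map_eq_bot_iff_of_injective T f.injective).1 hb)
    · rintro _ ⟨x, hx, rfl⟩ g hg
      obtain ⟨u, rfl⟩ := f.surjective g
      have hu : f (u * x * u⁻¹) = f u * f x * (f u)⁻¹ := by rw [map_mul, map_mul, map_inv]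
      refine ⟨u * x * u⁻¹, ?_, hu⟩
      have hxS : u * x * u⁻¹ ∈ (S : Subgroup G) := (hfS _).2 (hu ▸ hg)
      have hle : Subgroup.zpowers x ≤ T := Subgroup.zpowers_le.2 hx
      exact hT.2 (Subgroup.zpowers x) hle ((MulAut.conj u).toMonoidHom.comp (Subgroup.zpowers x).subtype)
        ⟨hle.trans hT.1, fun y => by
            obtain ⟨i, hi⟩ := Subgroup.mem_zpowers_iff.1 y.2
            show u * (y : G) * u⁻¹ ∈ _
            rw [← hi, ← conj_zpow]
            exact Subgroup.zpow_mem _ hxS i,
          u, fun y => rfl⟩ ⟨x, Subgroup.mem_zpowers x⟩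
  · intro g hg
    have hR : (cloG qGens).comap f.toMonoidHom ≤ (S : Subgroup G) ∧
        (S : Subgroup G) ≤ Subgroup.normalizer (((cloG qGens).comap f.toMonoidHom : Subgroup G) : Set G) ∧
        Subgroup.centralizer (((cloG qGens).comap f.toMonoidHom : Subgroup G) : Set G) ≤
          (cloG qGens).comap f.toMonoidHom := by
      refine ⟨fun x hx => (hfS x).2 (q_le_sylS hx), fun s hs => ?_, fun x hx => ?_⟩
      · rw [Subgroup.mem_normalizer_iff]
        intro y
        have := Subgroup.mem_normalizer_iff.1 (stab0_norm_q (sylS_le_stab0 ((hfS s).1 hs))) (f y)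
        simpa only [Subgroup.mem_comap, MulEquiv.coe_toMonoidHom, map_mul, map_inv] using this
      · refine cent_q (Subgroup.mem_centralizer_iff.2 fun y hy => ?_)
        obtain ⟨w, rfl⟩ := f.surjective y
        show f w * f x = f x * f w
        rw [← map_mul, ← map_mul, Subgroup.mem_centralizer_iff.1 hx w hy]
    refine Subgroup.mem_iSup_of_mem ((cloG qGens).comap f.toMonoidHom) (Subgroup.mem_iSup_of_mem hR ⟨hg, ?_⟩)
    have hgf : f g ∈ stab0 := by
      refine norm_sylS_le (Subgroup.mem_normalizer_iff.2 fun y => ?_)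
      obtain ⟨w, rfl⟩ := f.surjective y
      rw [← map_inv, ← map_mul, ← map_mul, ← hfS, ← hfS]
      exact Subgroup.mem_normalizer_iff.1 hg w
    have h2 := Subgroup.mem_map_of_mem f.symm.toMonoidHom (stab0_le_closure hgf)
    rw [MonoidHom.map_closure] at h2
    simp only [MulEquiv.coe_toMonoidHom, MulEquiv.symm_apply_apply] at h2
    refine Subgroup.closure_mono ?_ h2
    rintro _ ⟨y, ⟨hy, k, hk⟩, rfl⟩
    obtain ⟨w, rfl⟩ := f.surjective y
    rw [MulEquiv.symm_apply_apply]
    refine ⟨Subgroup.mem_normalizer_iff.2 fun v => ?_, k, by rw [← hk, MulEquiv.orderOf_eq]⟩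
    have := Subgroup.mem_normalizer_iff.1 hy (f v)
    simpa only [Subgroup.mem_comap, MulEquiv.coe_toMonoidHom, map_mul, map_inv] using this

end CfsgLib.J2
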